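import Mathlib
import Cfsg.Agent.H506.PiReal
import Cfsg.Agent.S0071
import Cfsg.Agent.S0086
import Cfsg.Agent.ClassicalGeometry.PSL2Basic
import Cfsg.Agent.OddCyclic.ClaimC.SzIso
import Cfsg.Agent.S0331
import Cfsg.Agent.FastGrp
import Cfsg.Agent.Prune
set_option linter.all false
prune_inst 0x7f00000000000000000000000000000000000000000000000000000000000000000000000000000000000000000000000000000000000000000000000000000000000000000000000000000000000000003fffffffffffffffffffffffffffbeffbdffffffff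
open scoped Cfsg.Agent.FastGrp

-- part: H506/PiCyc
section
/-!
# `π`-homogeneous groups: cyclic Sylow subgroups, and a single prime
-/

set_option autoImplicit false

namespace Cfsg.Agent.H506.PiCyc

open Subgroup Cfsg.Agent.H506.PiHomog
open scoped Pointwise

variable {π : Set ℕ} {G : Type*} [Group G] [Finite G]

theorem piNum_card_sylow {p : ℕ} [Fact p.Prime] (hpπ : p ∈ π) (P : Sylow p G) :
    PiNum π (Nat.card P) := by
  have hpp : p.Prime := Fact.out
  obtain ⟨k, hk⟩ := P.2.exists_card_eq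
  rw [hk]
  intro r hr hd
  rwa [(Nat.prime_dvd_prime_iff_eq hr hpp).1 (hr.dvd_of_dvd_pow hd)]

/-- In a `π`-homogeneous group, a cyclic Sylow subgroup for the smallest prime of `π` dividing the order is
in the centre of its normalizer. -/
theorem normalizer_le_centralizer (hG : Homog π G) {p : ℕ} [Fact p.Prime] (hpπ : p ∈ π)
    (hmin : ∀ r ∈ π, r.Prime → r ∣ Nat.card G → p ≤ r) (P : Sylow p G) (hP : IsCyclic P) :
    normalizer (P : Set G) ≤ centralizer (P : Set G) := by
  have hpp : p.Prime := Fact.out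
  obtain ⟨k, hk⟩ := P.2.exists_card_eq
  have h1 := relIndex_of_homog hG (P : Subgroup G) (piNum_card_sylow hpπ P)
  have key := card_dvd_of_injective _ (QuotientGroup.kerLift_injective P.normalizerMonoidHom)
  rw [normalizerMonoidHom_ker, ← index, ← relIndex] at key
  refine relIndex_eq_one.mp (Nat.eq_one_of_dvd_coprimes ?_ dvd_rfl key)
  rcases Nat.eq_zero_or_pos k with h0 | h0
  · rw [hP.card_mulAut, hk, h0, pow_zero, Nat.totient_one]
    apply Nat.coprime_one_right
  rw [hP.card_mulAut, hk, Nat.totient_prime_pow Fact.out h0]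
  have hnp : ¬ p ∣ (centralizer (P : Set G)).relIndex (normalizer (P : Set G)) := by
    intro h
    apply P.not_dvd_index
    exact (h.trans (relIndex_dvd_of_le_left _ P.le_centralizer)).trans
      (relIndex_dvd_index_of_le P.le_normalizer)
  refine Nat.coprime_of_dvd fun r hr hr1 hr2 => ?_
  have h2 : r ∈ π := h1 r hr hr1
  have h3 : r ∣ Nat.card G := (hr1.trans (relIndex_dvd_card _ _)).trans (card_subgroup_dvd_card _)
  have h4 := hmin r h2 hr h3
  rcases (Nat.Prime.dvd_mul hr).1 hr2 with h5 | h5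
  · rw [(Nat.prime_dvd_prime_iff_eq hr hpp).1 (hr.dvd_of_dvd_pow h5)] at hr1
    exact hnp hr1
  · have h6 := Nat.le_of_dvd (by have := hpp.two_le; omega) h5
    have := hpp.two_le
    omega

/-- A non-abelian simple `π`-homogeneous group of order divisible by a prime of `π` has a non-cyclic Sylow
`p`-subgroup, `p` the smallest such prime. -/
theorem false_of_cyclic_min [IsSimpleGroup G] (hna : ¬ IsMulCommutative G) (hG : Homog π G) {p : ℕ}
    [Fact p.Prime] (hpπ : p ∈ π) (hpG : p ∣ Nat.card G)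
    (hmin : ∀ r ∈ π, r.Prime → r ∣ Nat.card G → p ≤ r) (P : Sylow p G) (hP : IsCyclic P) : False := by
  have hle := normalizer_le_centralizer hG hpπ hmin P hP
  have hc := MonoidHom.ker_transferSylow_isComplement' P hle
  have hpp : p.Prime := Fact.out
  rcases (inferInstance : (MonoidHom.transferSylow P hle).ker.Normal).eq_bot_or_eq_top with h | h
  · rw [h] at hc
    have h1 : (P : Subgroup G) = ⊤ := by
      have := hc.index_eq_card
      rw [Subgroup.card_bot] at this
      exact Subgroup.index_eq_one.1 this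
    apply hna
    refine ⟨⟨fun a b => ?_⟩⟩
    have ha : a ∈ (P : Subgroup G) := by rw [h1]; trivial
    have hb : b ∈ (P : Subgroup G) := by rw [h1]; trivial
    have := (IsCyclic.isMulCommutative (α := P)).is_comm.comm (⟨a, ha⟩ : P) ⟨b, hb⟩
    exact congrArg Subtype.val this
  · rw [h] at hc
    have h1 : Nat.card (P : Subgroup G) = 1 := by
      have := hc.symm.index_eq_card
      rw [Subgroup.index_top] at this
      exact this.symm
    have h2 := P.card_eq_multiplicity
    rw [h1] at h2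
    have h3 : (Nat.card G).factorization p ≠ 0 := by
      have := hpp.factorization_pos_of_dvd (Nat.card_pos (α := G)).ne' hpG
      omega
    have h4 : 1 < p ^ (Nat.card G).factorization p := Nat.one_lt_pow h3 hpp.one_lt
    omega

/-- A non-abelian simple `π`-homogeneous group whose Sylow `p`-subgroups, `p ∈ π`, are all cyclic, is a
`π'`-group. -/
theorem piNum_of_cyclic [IsSimpleGroup G] (hna : ¬ IsMulCommutative G) (hG : Homog π G)
    (hcyc : ∀ (p : ℕ) [Fact p.Prime], p ∈ π → p ∣ Nat.card G → ∀ P : Sylow p G, IsCyclic P) :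
    PiNum πᶜ (Nat.card G) := by
  classical
  intro p hp hpd hpπ
  have hex : ∃ r, r ∈ π ∧ r.Prime ∧ r ∣ Nat.card G := ⟨p, hpπ, hp, hpd⟩
  obtain ⟨h1, h2, h3⟩ := Nat.find_spec hex
  have : Fact (Nat.find hex).Prime := ⟨h2⟩
  obtain ⟨P⟩ : Nonempty (Sylow (Nat.find hex) G) := inferInstance
  exact false_of_cyclic_min hna hG h1 h3
    (fun r hr1 hr2 hr3 => Nat.find_min' hex ⟨hr1, hr2, hr3⟩) P (hcyc _ h1 h3 P)

/-- A `π`-homogeneous group whose order has at most one prime divisor in `π` is `π'`-closed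
(Frobenius). -/
theorem closedPr_of_single (hG : Homog π G) {p : ℕ} (hp : p.Prime)
    (hone : ∀ r ∈ π, r.Prime → r ∣ Nat.card G → r = p) : ClosedPr π G := by
  by_cases hpπ : p ∈ π
  swap
  · apply closedPr_of_piNum'
    intro r hr hrd hrπ
    rw [hone r hrπ hr hrd] at hrπ
    exact hpπ hrπ
  have : Fact p.Prime := ⟨hp⟩
  obtain ⟨P⟩ : Nonempty (Sylow p G) := inferInstance
  have hmem : ∀ r : ℕ, r.Prime → r ∣ Nat.card G → (r ∈ π ↔ r = p) := fun r hr hrd =>
    ⟨fun h => hone r h hr hrd, fun h => h ▸ hpπ⟩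
  have hord : ∀ x : G, (PiNum πᶜ (orderOf x) ↔ Nat.Coprime (orderOf x) p) := by
    intro x
    rw [Nat.coprime_comm, Nat.Prime.coprime_iff_not_dvd hp]
    constructor
    · intro h hd
      exact h p hp hd hpπ
    · intro h r hr hrd hrπ
      rw [hone r hrπ hr (hrd.trans (_root_.orderOf_dvd_natCard x))] at hrd
      exact h hrd
  obtain ⟨N, hN, hc⟩ := (Cfsg.Agent.S0071.result P).2 (by
    intro Q hQ g hg ho
    rw [Subgroup.mem_centralizer_iff]
    intro h hh
    have hQπ : PiNum π (Nat.card Q) :=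
      (piNum_card_sylow hpπ P).mono (Subgroup.card_dvd_of_le hQ)
    exact (hG Q hQπ g hg ((hord g).2 ho) h hh).symm)
  exact ⟨N, fun x => by rw [Cfsg.Agent.S0086.result P N hc, hord]⟩

end Cfsg.Agent.H506.PiCyc
end

-- part: H506/PiPSL
section
/-!
# `PSL(2, q)` is not `π`-homogeneous for a set of odd primes `π` meeting its order
-/

set_option autoImplicit false

namespace Cfsg.Agent.H506.PiPSL

open Subgroup Cfsg.Agent.H506.PiHomog Cfsg.Agent.H506.PiReal Matrix

variable {F : Type*} [Field F]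

local notation "SL2" => Matrix.SpecialLinearGroup (Fin 2) F

/-- A matrix of determinant `-1` conjugating `A` to its inverse. -/
theorem exists_pre (A : SL2) : ∃ x y z w : F, x * w - y * z = -1 ∧
    !![x, y; z, w] * (A : Matrix (Fin 2) (Fin 2) F) = (A⁻¹ : SL2) * !![x, y; z, w] ∧ w = -x := by
  have hdet := A.2
  rw [Matrix.det_fin_two] at hdet
  set a := (A : Matrix (Fin 2) (Fin 2) F) 0 0 with ha
  set b := (A : Matrix (Fin 2) (Fin 2) F) 0 1 with hb
  set c := (A : Matrix (Fin 2) (Fin 2) F) 1 0 with hc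
  set d := (A : Matrix (Fin 2) (Fin 2) F) 1 1 with hd
  have hA : (A : Matrix (Fin 2) (Fin 2) F) = !![a, b; c, d] := Matrix.eta_fin_two _
  have hAi : ((A⁻¹ : SL2) : Matrix (Fin 2) (Fin 2) F) = !![d, -b; -c, a] := by
    rw [Matrix.SpecialLinearGroup.coe_inv, Matrix.adjugate_fin_two]
  rw [hA, hAi]
  by_cases hc0 : c = 0
  · by_cases hb0 : b = 0
    · refine ⟨0, 1, 1, 0, by ring, ?_, by ring⟩
      rw [hc0, hb0]
      ext i j; (revert i j; simp only [Matrix.mul_apply, Fin.sum_univ_two, _root_.Fin.forall_fin_succ, _root_.Matrix.of_apply, _root_.Matrix.cons_val', _root_.Matrix.cons_val_fin_one, Fin.isValue, _root_.Matrix.cons_val_zero, _root_.Matrix.cons_val_one, _root_.neg_zero, _root_.MulZeroClass.mul_zero, _root_.add_zero, _root_.mul_one, _root_.zero_add, _root_.Matrix.cons_val_succ, _root_.forall_const, _root_.MulZeroClass.zero_mul, _root_.one_mul, _root_.and_self, _root_.implies_true])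
    · refine ⟨1, 0, (d - a) / b, -1, by ring, ?_, by ring⟩
      rw [hc0]
      ext i j; (revert i j; simp only [Matrix.mul_apply, Fin.sum_univ_two, _root_.Fin.forall_fin_succ, _root_.Matrix.of_apply, _root_.Matrix.cons_val', _root_.Matrix.cons_val_fin_one, Fin.isValue, _root_.Matrix.cons_val_zero, _root_.Matrix.cons_val_one, _root_.neg_zero, _root_.MulZeroClass.mul_zero, _root_.add_zero, _root_.mul_one, _root_.Matrix.cons_val_succ, _root_.mul_neg, _root_.zero_add, _root_.forall_const, _root_.one_mul, _root_.neg_mul, _root_.MulZeroClass.zero_mul, _root_.neg_neg, _root_.and_true]) <;> (repeat' with_reducible apply And.intro) <;> field_simp <;> ring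
  · refine ⟨1, (d - a) / c, 0, -1, by ring, ?_, by ring⟩
    ext i j; (revert i j; simp only [Matrix.mul_apply, Fin.sum_univ_two, _root_.Fin.forall_fin_succ, _root_.Matrix.of_apply, _root_.Matrix.cons_val', _root_.Matrix.cons_val_fin_one, Fin.isValue, _root_.Matrix.cons_val_zero, _root_.Matrix.cons_val_one, _root_.mul_one, _root_.MulZeroClass.mul_zero, _root_.add_zero, _root_.Matrix.cons_val_succ, _root_.mul_neg, _root_.forall_const, _root_.one_mul, _root_.neg_neg, _root_.MulZeroClass.zero_mul, _root_.neg_mul, _root_.zero_add, _root_.true_and]) <;> (repeat' with_reducible apply And.intro) <;> field_simp <;> ring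

/-- The form `x² + t x y + y²` represents `-1`. -/
theorem exists_form [Fintype F] (t : F) (h : (2 : F) = 0 ∨ t ^ 2 ≠ 4) :
    ∃ x y : F, x ^ 2 + t * x * y + y ^ 2 = -1 := by
  rcases h with h | h
  · refine ⟨1, 0, ?_⟩
    linear_combination h
  · by_cases h2 : (2 : F) = 0
    · refine ⟨1, 0, ?_⟩
      linear_combination h2
    have h4 : (4 : F) ≠ 0 := by
      intro h4
      apply h2
      have : (2 : F) * 2 = 0 := by linear_combination h4
      rcases mul_eq_zero.1 this with h | h <;> exact h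
    have hodd : Fintype.card F % 2 = 1 := by
      have := (Cfsg.Agent.ClassicalGeometry.PSL2Basic.two_ne_zero_iff_odd F).1 h2
      exact Nat.odd_iff.1 this
    set k : F := 1 - t ^ 2 / 4 with hk
    have hk0 : k ≠ 0 := by
      intro h0
      apply h
      rw [hk] at h0
      field_simp at h0
      linear_combination -h0
    obtain ⟨u, y, huy⟩ := FiniteField.exists_root_sum_quadratic (f := Polynomial.X ^ 2)
      (g := Polynomial.C k * Polynomial.X ^ 2 + Polynomial.C 0 * Polynomial.X + Polynomial.C 1)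
      (by simp only [_root_.Polynomial.degree_pow, _root_.Polynomial.degree_X, _root_.nsmul_eq_mul, _root_.Nat.cast_ofNat, _root_.mul_one]) (by exact Polynomial.degree_quadratic hk0) hodd
    simp only [_root_.Polynomial.eval_pow, _root_.Polynomial.eval_X, _root_.map_zero, _root_.MulZeroClass.zero_mul, _root_.add_zero, _root_.map_one, _root_.Polynomial.eval_add, _root_.Polynomial.eval_mul, _root_.Polynomial.eval_C, _root_.Polynomial.eval_one] at huy
    refine ⟨u - t * y / 2, y, ?_⟩
    rw [hk] at huy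
    field_simp
    field_simp at huy
    linear_combination huy

theorem exists_conj_inv [Fintype F] (A : SL2)
    (h : (2 : F) = 0 ∨ ((A : Matrix (Fin 2) (Fin 2) F) 0 0 + (A : Matrix (Fin 2) (Fin 2) F) 1 1) ^ 2 ≠ 4) :
    ∃ B : SL2, B * A * B⁻¹ = A⁻¹ := by
  obtain ⟨x, y, z, w, hd, hc, -⟩ := exists_pre A
  set t : F := (A : Matrix (Fin 2) (Fin 2) F) 0 0 + (A : Matrix (Fin 2) (Fin 2) F) 1 1 with ht
  obtain ⟨u, v, huv⟩ := exists_form t h
  have hdet := A.2
  rw [Matrix.det_fin_two] at hdet
  set C : Matrix (Fin 2) (Fin 2) F := u • (1 : Matrix (Fin 2) (Fin 2) F) + v • (A : Matrix (Fin 2) (Fin 2) F)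
    with hC
  have hCA : C * (A : Matrix (Fin 2) (Fin 2) F) = (A : Matrix (Fin 2) (Fin 2) F) * C := by
    rw [hC]
    simp only [add_mul, mul_add, _root_.Algebra.smul_mul_assoc, _root_.one_mul, _root_.Algebra.mul_smul_comm, _root_.mul_one]
  have hCdet : C.det = -1 := by
    rw [← huv, hC, Matrix.det_fin_two, ht]
    simp only [_root_.Fin.isValue, _root_.Matrix.add_apply, _root_.Matrix.smul_apply, _root_.Matrix.one_apply_eq, _root_.smul_eq_mul, _root_.mul_one, _root_.ne_eq, _root_.zero_ne_one, _root_.not_false_eq_true, _root_.Matrix.one_apply_ne, _root_.MulZeroClass.mul_zero, _root_.zero_add, _root_.one_ne_zero]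
    linear_combination v ^ 2 * hdet
  set M : Matrix (Fin 2) (Fin 2) F := !![x, y; z, w] * C with hM
  have hMdet : M.det = 1 := by
    rw [hM, Matrix.det_mul, hCdet, Matrix.det_fin_two_of, hd]
    ring
  obtain ⟨B, hB⟩ : ∃ B : SL2, (B : Matrix (Fin 2) (Fin 2) F) = M := ⟨⟨M, hMdet⟩, rfl⟩
  refine ⟨B, ?_⟩
  rw [mul_inv_eq_iff_eq_mul]
  apply Subtype.ext
  rw [Matrix.SpecialLinearGroup.coe_mul, Matrix.SpecialLinearGroup.coe_mul, hB]
  rw [hM, mul_assoc, hCA, ← mul_assoc, hc, mul_assoc]


local notation "PSL2" => Matrix.ProjectiveSpecialLinearGroup (Fin 2) F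

/-- The projection to `PSL`. -/
def pr (F : Type*) [Field F] : Matrix.SpecialLinearGroup (Fin 2) F →* Matrix.ProjectiveSpecialLinearGroup (Fin 2) F :=
  QuotientGroup.mk' _

theorem pr_surjective : Function.Surjective (pr F) := QuotientGroup.mk'_surjective _

theorem pr_eq_one_iff {A : SL2} : pr F A = 1 ↔ A = 1 ∨ A = -1 := by
  rw [← Cfsg.Agent.ClassicalGeometry.PSL2Basic.mem_center_SL2_iff]
  exact QuotientGroup.eq_one_iff A

/-- `(A ∓ 1)² = 0` when `tr A = ± 2`. -/
theorem pow_char_of_trace {r : ℕ} [Fact r.Prime] [CharP F r] (hr2 : r ≠ 2) (A : SL2)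
    (h : ((A : Matrix (Fin 2) (Fin 2) F) 0 0 + (A : Matrix (Fin 2) (Fin 2) F) 1 1) ^ 2 = 4) :
    pr F A ^ r = 1 := by
  have hr : r.Prime := Fact.out
  have hodd : Odd r := hr.odd_of_ne_two hr2
  rw [← map_pow, pr_eq_one_iff]
  have hdet := A.2
  rw [Matrix.det_fin_two] at hdet
  set a := (A : Matrix (Fin 2) (Fin 2) F) 0 0 with ha
  set b := (A : Matrix (Fin 2) (Fin 2) F) 0 1 with hb
  set c := (A : Matrix (Fin 2) (Fin 2) F) 1 0 with hc
  set d := (A : Matrix (Fin 2) (Fin 2) F) 1 1 with hd
  have hA : (A : Matrix (Fin 2) (Fin 2) F) = !![a, b; c, d] := Matrix.eta_fin_two _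
  obtain ⟨e, he, hee⟩ : ∃ e : F, (e = 1 ∨ e = -1) ∧ a + d = 2 * e := by
    have h1 : (a + d - 2) * (a + d + 2) = 0 := by linear_combination h
    rcases mul_eq_zero.1 h1 with h2 | h2
    · exact ⟨1, Or.inl rfl, by linear_combination h2⟩
    · exact ⟨-1, Or.inr rfl, by linear_combination h2⟩
  have he2 : e * e = 1 := by rcases he with rfl | rfl <;> ring
  have hnil : ((A : Matrix (Fin 2) (Fin 2) F) - e • (1 : Matrix (Fin 2) (Fin 2) F)) ^ 2 = 0 := by
    rw [hA, pow_two]
    ext i j
    fin_cases i <;> fin_cases j <;> simp only [Matrix.mul_apply, Fin.sum_univ_two, _root_.Fin.zero_eta, _root_.Fin.isValue, _root_.Matrix.sub_apply, _root_.Matrix.of_apply, _root_.Matrix.cons_val', _root_.Matrix.cons_val_fin_one, _root_.Matrix.cons_val_zero, _root_.Matrix.smul_apply, _root_.smul_eq_mul, _root_.Matrix.one_apply_eq, _root_.mul_one, _root_.Matrix.cons_val_one, _root_.ne_eq, _root_.zero_ne_one, _root_.not_false_eq_true, _root_.Matrix.one_apply_ne, _root_.MulZeroClass.mul_zero, _root_.sub_zero,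 _root_.one_ne_zero, _root_.Matrix.zero_apply, _root_.Fin.mk_one]
    · linear_combination a * hee - hdet + he2
    · linear_combination b * hee
    · linear_combination c * hee
    · linear_combination d * hee - hdet + he2
  have hcom : Commute (A : Matrix (Fin 2) (Fin 2) F) (e • (1 : Matrix (Fin 2) (Fin 2) F)) := by
    show _ * _ = _ * _
    simp
  have hpow : (A : Matrix (Fin 2) (Fin 2) F) ^ r = (e • (1 : Matrix (Fin 2) (Fin 2) F)) ^ r := by
    have h1 : ((A : Matrix (Fin 2) (Fin 2) F) - e • (1 : Matrix (Fin 2) (Fin 2) F)) ^ r =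
        (A : Matrix (Fin 2) (Fin 2) F) ^ r - (e • (1 : Matrix (Fin 2) (Fin 2) F)) ^ r :=
      sub_pow_char_of_commute r hcom
    have h2 : ((A : Matrix (Fin 2) (Fin 2) F) - e • (1 : Matrix (Fin 2) (Fin 2) F)) ^ r = 0 := by
      obtain ⟨k, hk⟩ := Nat.exists_eq_add_of_le hr.two_le
      rw [hk, pow_add, hnil, zero_mul]
    rw [h2] at h1
    exact (sub_eq_zero.1 h1.symm)
  have her : e ^ r = e := by
    rcases he with rfl | rfl
    · simp
    · rw [hodd.neg_one_pow]
  have hpow2 : ((A ^ r : SL2) : Matrix (Fin 2) (Fin 2) F) = e • (1 : Matrix (Fin 2) (Fin 2) F) := by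
    rw [Matrix.SpecialLinearGroup.coe_pow, hpow, smul_pow, one_pow, her]
  rcases he with rfl | rfl
  · left
    apply Subtype.ext
    rw [hpow2]; simp
  · right
    apply Subtype.ext
    rw [hpow2, Matrix.SpecialLinearGroup.coe_neg]; simp

/-- The diagonal element. -/
def dg (l : Fˣ) : Matrix.SpecialLinearGroup (Fin 2) F :=
  ⟨!![(l : F), 0; 0, ((l⁻¹ : Fˣ) : F)], by rw [Matrix.det_fin_two_of]; simp⟩

theorem dg_mul (l m : Fˣ) : dg (l * m) = dg l * dg m := by
  apply Subtype.ext
  rw [Matrix.SpecialLinearGroup.coe_mul]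
  show !![((l * m : Fˣ) : F), 0; 0, (((l * m)⁻¹ : Fˣ) : F)] =
    !![(l : F), 0; 0, ((l⁻¹ : Fˣ) : F)] * !![(m : F), 0; 0, ((m⁻¹ : Fˣ) : F)]
  ext i j
  (revert i j; simp only [Matrix.mul_apply, Fin.sum_univ_two, _root_.Fin.forall_fin_succ, _root_.Units.val_mul, _root_.mul_inv_rev, _root_.Units.val_inv_eq_inv_val, _root_.Matrix.of_apply, _root_.Matrix.cons_val', _root_.Matrix.cons_val_fin_one, Fin.isValue, _root_.Matrix.cons_val_zero, _root_.Matrix.cons_val_one, _root_.MulZeroClass.mul_zero, _root_.add_zero, _root_.Matrix.cons_val_succ, _root_.zero_add, _root_.forall_const, _root_.MulZeroClass.zero_mul, _root_.and_true, _root_.true_and]) <;> (repeat' with_reducible apply And.intro)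
  ring

theorem dg_one : dg (1 : Fˣ) = 1 := by
  apply Subtype.ext
  show !![((1 : Fˣ) : F), 0; 0, (((1 : Fˣ)⁻¹ : Fˣ) : F)] = (1 : Matrix (Fin 2) (Fin 2) F)
  ext i j
  (revert i j; simp only [_root_.Fin.forall_fin_succ, _root_.Units.val_one, _root_.inv_one, _root_.Matrix.of_apply, _root_.Matrix.cons_val', _root_.Matrix.cons_val_fin_one, Fin.isValue, _root_.Matrix.cons_val_zero, _root_.Matrix.cons_val_succ, _root_.IsEmpty.forall_iff, _root_.and_true, _root_.Matrix.one_apply_eq, Nat.reduceAdd, _root_.Fin.succ_zero_eq_one, _root_.ne_eq, _root_.zero_ne_one, _root_.not_false_eq_true, _root_.Matrix.one_apply_ne, _root_.and_self, _root_.Fin.succ_ne_zero, _root_.true_and])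

/-- the diagonal torus -/
def dgHom (F : Type*) [Field F] : Fˣ →* Matrix.SpecialLinearGroup (Fin 2) F where
  toFun := dg
  map_one' := dg_one
  map_mul' := dg_mul

/-- the upper unipotent element -/
def un (x : F) : Matrix.SpecialLinearGroup (Fin 2) F :=
  ⟨!![1, x; 0, 1], by rw [Matrix.det_fin_two_of]; ring⟩

theorem un_add (x y : F) : un (x + y) = un x * un y := by
  apply Subtype.ext
  rw [Matrix.SpecialLinearGroup.coe_mul]
  show !![1, x + y; 0, 1] = !![1, x; 0, 1] * !![1, y; 0, 1]
  ext i j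
  (revert i j; simp only [Matrix.mul_apply, Fin.sum_univ_two, _root_.Fin.forall_fin_succ, _root_.Matrix.of_apply, _root_.Matrix.cons_val', _root_.Matrix.cons_val_fin_one, Fin.isValue, _root_.Matrix.cons_val_zero, _root_.Matrix.cons_val_one, _root_.mul_one, _root_.MulZeroClass.mul_zero, _root_.add_zero, _root_.Matrix.cons_val_succ, _root_.forall_const, _root_.one_mul, _root_.MulZeroClass.zero_mul, _root_.zero_add, _root_.implies_true, _root_.and_true, _root_.true_and]) <;> (repeat' with_reducible apply And.intro)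
  ring

theorem un_zero : un (0 : F) = 1 := by
  apply Subtype.ext
  show !![1, (0 : F); 0, 1] = (1 : Matrix (Fin 2) (Fin 2) F)
  ext i j
  (revert i j; simp only [_root_.Fin.forall_fin_succ, _root_.Matrix.of_apply, _root_.Matrix.cons_val', _root_.Matrix.cons_val_fin_one, Fin.isValue, _root_.Matrix.cons_val_zero, _root_.Matrix.cons_val_succ, _root_.IsEmpty.forall_iff, _root_.and_true, _root_.Matrix.one_apply_eq, Nat.reduceAdd, _root_.Fin.succ_zero_eq_one, _root_.ne_eq, _root_.zero_ne_one, _root_.not_false_eq_true, _root_.Matrix.one_apply_ne, _root_.and_self, _root_.Fin.succ_ne_zero, _root_.true_and])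

/-- the upper unipotent group -/
def unHom (F : Type*) [Field F] : Multiplicative F →* Matrix.SpecialLinearGroup (Fin 2) F where
  toFun x := un x.toAdd
  map_one' := un_zero
  map_mul' x y := un_add x.toAdd y.toAdd

theorem dg_mul_un (l : Fˣ) (x : F) : dg l * un x = un (l ^ 2 * x) * dg l := by
  apply Subtype.ext
  rw [Matrix.SpecialLinearGroup.coe_mul, Matrix.SpecialLinearGroup.coe_mul]
  show !![(l : F), 0; 0, ((l⁻¹ : Fˣ) : F)] * !![1, x; 0, 1] =
    !![1, (l : F) ^ 2 * x; 0, 1] * !![(l : F), 0; 0, ((l⁻¹ : Fˣ) : F)]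
  ext i j
  (revert i j; simp only [Matrix.mul_apply, Fin.sum_univ_two, _root_.Fin.forall_fin_succ, _root_.Units.val_inv_eq_inv_val, _root_.Matrix.of_apply, _root_.Matrix.cons_val', _root_.Matrix.cons_val_fin_one, Fin.isValue, _root_.Matrix.cons_val_zero, _root_.Matrix.cons_val_one, _root_.mul_one, _root_.MulZeroClass.mul_zero, _root_.add_zero, _root_.Matrix.cons_val_succ, _root_.zero_add, _root_.forall_const, _root_.one_mul, _root_.MulZeroClass.zero_mul, _root_.implies_true, _root_.and_true, _root_.true_and]) <;> (repeat' with_reducible apply And.intro)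
  field_simp

/-- **Theorem.** -/
theorem psl_two [Fintype F] (h4 : 4 ≤ Fintype.card F) {π : Set ℕ} (h2 : 2 ∉ π)
    (hG : Homog π PSL2) : PiNum πᶜ (Nat.card PSL2) := by
  classical
  intro p hp hpd hpπ
  have : Fact p.Prime := ⟨hp⟩
  obtain ⟨y, hy⟩ := exists_prime_orderOf_dvd_card' (G := PSL2) p hpd
  obtain ⟨A, rfl⟩ := pr_surjective y
  -- real elements
  have hreal : ∀ B : SL2, ((2 : F) = 0 ∨
      ((B : Matrix (Fin 2) (Fin 2) F) 0 0 + (B : Matrix (Fin 2) (Fin 2) F) 1 1) ^ 2 ≠ 4) →
      ∃ g : PSL2, g * pr F B * g⁻¹ = (pr F B)⁻¹ := by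
    intro B hB
    obtain ⟨C, hC⟩ := exists_conj_inv B hB
    exact ⟨pr F C, by rw [← map_mul, ← map_inv, ← map_mul, hC, map_inv]⟩
  by_cases hcase : (2 : F) = 0 ∨
      ((A : Matrix (Fin 2) (Fin 2) F) 0 0 + (A : Matrix (Fin 2) (Fin 2) F) 1 1) ^ 2 ≠ 4
  · obtain ⟨g, hg⟩ := hreal A hcase
    exact not_real hG h2 hp hpπ hy hg
  push Not at hcase
  obtain ⟨h20, htr⟩ := hcase
  -- the characteristic
  obtain ⟨r, hr⟩ := CharP.exists F
  have hrp : r.Prime := CharP.char_is_prime F r
  have : Fact r.Prime := ⟨hrp⟩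
  have hr2 : r ≠ 2 := by
    rintro rfl
    exact h20 CharTwo.two_eq_zero
  have hpr : p = r := by
    have h1 := pow_char_of_trace hr2 A htr
    have h3 : orderOf (pr F A) ∣ r := orderOf_dvd_of_pow_eq_one h1
    rw [hy] at h3
    exact (Nat.prime_dvd_prime_iff_eq hp hrp).1 h3
  subst hpr
  have hodd : Odd (Fintype.card F) := (Cfsg.Agent.ClassicalGeometry.PSL2Basic.two_ne_zero_iff_odd F).1 h20
  obtain ⟨m, hm⟩ := hodd
  have hm2 : 2 ≤ m := by omega
  obtain ⟨s, hs, hsm⟩ := Nat.exists_prime_and_dvd (n := m) (by omega)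
  -- an element of order `2 s` in the multiplicative group
  have hcard : Nat.card Fˣ = 2 * m := by
    rw [Nat.card_units, Nat.card_eq_fintype_card, hm]
    omega
  obtain ⟨ζ, hζ⟩ := IsCyclic.exists_generator (α := Fˣ)
  have hζo : orderOf ζ = 2 * m := by rw [← hcard, orderOf_eq_card_of_forall_mem_zpowers hζ]
  obtain ⟨l, hl⟩ : ∃ l : Fˣ, orderOf l = 2 * s := by
    obtain ⟨c, hc⟩ := hsm
    have hc0 : c ≠ 0 := by rintro rfl; omega
    refine ⟨ζ ^ c, ?_⟩
    rw [orderOf_pow_of_dvd hc0 (by rw [hζo, hc]; exact ⟨2 * s, by ring⟩), hζo, hc]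
    have : 2 * (s * c) = 2 * s * c := by ring
    rw [this, Nat.mul_div_cancel _ (Nat.pos_of_ne_zero hc0)]
  have hls : l ^ s ≠ 1 := by
    intro h
    have := orderOf_dvd_of_pow_eq_one h
    rw [hl] at this
    have := Nat.le_of_dvd hs.pos this
    have := hs.pos
    omega
  have hl2 : l ^ 2 ≠ 1 := by
    intro h
    have := orderOf_dvd_of_pow_eq_one h
    rw [hl] at this
    have := Nat.le_of_dvd (by norm_num) this
    have := hs.two_le
    omega
  have hls2 : (l ^ s) ^ 2 = 1 := by rw [← pow_mul, mul_comm s 2, ← hl]; exact pow_orderOf_eq_one l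
  have hlsm : ((l ^ s : Fˣ) : F) = -1 := by
    have h1 : (((l ^ s : Fˣ) : F) - 1) * (((l ^ s : Fˣ) : F) + 1) = 0 := by
      have : (((l ^ s) ^ 2 : Fˣ) : F) = 1 := by rw [hls2]; rfl
      rw [Units.val_pow_eq_pow_val] at this
      linear_combination this
    rcases mul_eq_zero.1 h1 with h3 | h3
    · exact absurd (Units.ext (by rw [Units.val_one]; linear_combination h3)) hls
    · linear_combination h3
  have hl20 : (l : F) ^ 2 ≠ 1 := fun h => hl2 (Units.ext (by simpa only [_root_.Units.val_pow_eq_pow_val, _root_.Units.val_one, _root_.sq_eq_one_iff, _root_.Units.val_eq_one, _root_.Units.val_eq_neg_one] using h))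
  have hl0 : (l : F) ≠ 0 := l.ne_zero
  have hdgs : pr F (dg l) ^ s = 1 := by
    rw [← map_pow, pr_eq_one_iff]
    right
    have h1 : dg l ^ s = dg (l ^ s) := ((dgHom F).map_pow l s).symm
    rw [h1]
    apply Subtype.ext
    rw [Matrix.SpecialLinearGroup.coe_neg]
    show !![((l ^ s : Fˣ) : F), 0; 0, (((l ^ s)⁻¹ : Fˣ) : F)] = -(1 : Matrix (Fin 2) (Fin 2) F)
    have h3 : (((l ^ s)⁻¹ : Fˣ) : F) = -1 := by rw [Units.val_inv_eq_inv_val, hlsm]; norm_num
    rw [hlsm, h3]
    ext i j
    (revert i j; simp only [_root_.Fin.forall_fin_succ, _root_.Matrix.of_apply, _root_.Matrix.cons_val', _root_.Matrix.cons_val_fin_one, _root_.Matrix.neg_apply, Fin.isValue, _root_.Matrix.cons_val_zero, _root_.Matrix.cons_val_succ, _root_.IsEmpty.forall_iff, _root_.and_true, _root_.Matrix.one_apply_eq, Nat.reduceAdd, _root_.Fin.succ_zero_eq_one, _root_.ne_eq, _root_.zero_ne_one, _root_.not_false_eq_true, _root_.Matrix.one_apply_ne, _root_.neg_zero, _root_.and_self, _root_.Fin.succ_ne_zero, _root_.neg_inj,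 _root_.true_and])
  have hsπ : s ∉ π := by
    intro hsπ
    have : Fact s.Prime := ⟨hs⟩
    have ho : orderOf (pr F (dg l)) = s := by
      apply orderOf_eq_prime hdgs
      intro h
      rw [pr_eq_one_iff] at h
      apply hl20
      rcases h with h | h
      · have := congrArg (fun B : SL2 => (B : Matrix (Fin 2) (Fin 2) F) 0 0) h
        change (l : F) = _ at this
        simp at this
        rw [this]; norm_num
      · have := congrArg (fun B : SL2 => (B : Matrix (Fin 2) (Fin 2) F) 0 0) h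
        change (l : F) = _ at this
        simp at this
        rw [this]; simp only [_root_.Units.val_neg, _root_.Units.val_one, _root_.even_two, _root_.Even.neg_pow, _root_.one_pow]
    obtain ⟨g, hg⟩ := hreal (dg l) (Or.inr (by
      show ((l : F) + ((l⁻¹ : Fˣ) : F)) ^ 2 ≠ 4
      intro h
      apply hl20
      rw [Units.val_inv_eq_inv_val] at h
      have h5 : ((l : F) ^ 2 - 1) ^ 2 = 0 := by
        field_simp at h
        linear_combination h
      have h6 := pow_eq_zero_iff (two_ne_zero) |>.1 h5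
      linear_combination h6))
    exact not_real hG h2 hs hsπ ho hg
  -- the unipotent group
  set H : Subgroup PSL2 := ((pr F).comp (unHom F)).range with hH
  have hHπ : PiNum π (Nat.card H) := by
    have h1 : Nat.card H ∣ Nat.card (Multiplicative F) := Subgroup.card_range_dvd _
    have h3 : Nat.card (Multiplicative F) = Fintype.card F := by
      rw [Nat.card_congr Multiplicative.toAdd, Nat.card_eq_fintype_card]
    rw [h3] at h1
    obtain ⟨n, -, hn⟩ := FiniteField.card F p
    rw [hn] at h1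
    intro t ht htd
    rw [(Nat.prime_dvd_prime_iff_eq ht hp).1 (ht.dvd_of_dvd_pow (htd.trans h1))]
    exact hpπ
  have hnorm : pr F (dg l) ∈ normalizer (H : Set PSL2) := by
    apply mem_normalizer_of_forall
    rintro _ ⟨x, rfl⟩
    refine ⟨Multiplicative.ofAdd ((l : F) ^ 2 * x.toAdd), ?_⟩
    show pr F (un ((l : F) ^ 2 * x.toAdd)) = pr F (dg l) * pr F (un x.toAdd) * (pr F (dg l))⁻¹
    rw [← map_mul, ← map_inv, ← map_mul, dg_mul_un, mul_inv_cancel_right]
  have hcomm := Homog.of_order hG H hHπ (pr F (dg l)) hnorm s (by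
    intro t ht htd
    rw [(Nat.prime_dvd_prime_iff_eq ht hs).1 htd]
    exact hsπ) (by
    intro h _
    rw [hdgs]; simp) (pr F (un 1)) ⟨Multiplicative.ofAdd 1, rfl⟩
  rw [← map_mul, dg_mul_un, ← map_mul] at hcomm
  have h7 : pr F (un ((l : F) ^ 2 * 1) * dg l * (un 1 * dg l)⁻¹) = 1 := by
    rw [map_mul, map_inv, hcomm, mul_inv_cancel]
  have h8 : un ((l : F) ^ 2 * 1) * dg l * (un 1 * dg l)⁻¹ = un ((l : F) ^ 2 * 1) * (un 1)⁻¹ := by group
  have h9 : (un (1 : F))⁻¹ = un (-1) := by
    rw [inv_eq_iff_mul_eq_one, ← un_add]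
    rw [add_neg_cancel]
    exact un_zero
  rw [h8, h9, ← un_add, pr_eq_one_iff] at h7
  rcases h7 with h7 | h7
  · have := congrArg (fun B : SL2 => (B : Matrix (Fin 2) (Fin 2) F) 0 1) h7
    change (l : F) ^ 2 * 1 + -1 = _ at this
    simp only [_root_.mul_one, _root_.Fin.isValue, _root_.Matrix.SpecialLinearGroup.coe_one, _root_.ne_eq, _root_.zero_ne_one, _root_.not_false_eq_true, _root_.Matrix.one_apply_ne] at this
    apply hl20
    linear_combination this
  · have := congrArg (fun B : SL2 => (B : Matrix (Fin 2) (Fin 2) F) 0 0) h7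
    change (1 : F) = _ at this
    simp at this
    apply h20
    linear_combination this

end Cfsg.Agent.H506.PiPSL
end

-- part: H506/PiSmall
section
/-!
# `PSL(3, 3)`, `Sz(q)`, `A₇` and `π`-homogeneity
-/

set_option autoImplicit false

namespace Cfsg.Agent.H506.PiSmall

open Subgroup Cfsg.Agent.H506.PiHomog Cfsg.Agent.H506.PiReal Cfsg.Agent.H506.PiCyc Matrix

/-- A simple group in which the `π'`-elements form a subgroup is a `π`-group or a `π'`-group. -/
theorem of_closedPr {π : Set ℕ} {G : Type*} [Group G] [Finite G] [IsSimpleGroup G] (h : ClosedPr π G) :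
    PiNum π (Nat.card G) ∨ PiNum πᶜ (Nat.card G) := by
  obtain ⟨K, hKc, hK1, hK2, -⟩ := exists_normal_of_closedPr h
  have hKn : K.Normal := Subgroup.normal_of_characteristic K
  rcases hKn.eq_bot_or_eq_top with h | h
  · left
    rwa [h, Subgroup.index_bot] at hK2
  · right
    rwa [h, Subgroup.card_top] at hK1

theorem sz {F : Type*} [Field F] [Fintype F] {m : ℕ} (hm : 1 ≤ m)
    (hF : Fintype.card F = 2 ^ (2 * m + 1)) {G : Type*} [Group G] [Finite G] [IsSimpleGroup G]
    (hna : ¬ IsMulCommutative G) (e : G ≃* Cfsg.Lie.Sz F (2 ^ (m + 1))) {π : Set ℕ} (h2 : 2 ∉ π)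
    (hG : Homog π G) : PiNum πᶜ (Nat.card G) := by
  refine piNum_of_cyclic hna hG fun p _ hpπ _ P => ?_
  obtain ⟨e'⟩ := Cfsg.Agent.OddCyclic.ClaimC.SzIso.iso (F := F) hm hF
  let f : G ≃* Cfsg.Sz F m := e.trans e'.symm
  have hc := Cfsg.Agent.S0331.result hm hF (p := p) (by rintro rfl; exact h2 hpπ)
    (P.mapSurjective (f := f.toMonoidHom) f.surjective)
  have e2 : P ≃* (P : Subgroup G).map f.toMonoidHom :=
    (P : Subgroup G).equivMapOfInjective f.toMonoidHom f.injective
  have hc' : IsCyclic ↥((P : Subgroup G).map f.toMonoidHom) := hc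
  exact isCyclic_of_surjective e2.symm.toMonoidHom e2.symm.surjective

section three

variable {F : Type*} [Field F] [Fintype F]

local notation "SL3" => Matrix.SpecialLinearGroup (Fin 3) F
local notation "PSL3" => Matrix.ProjectiveSpecialLinearGroup (Fin 3) F

theorem card_three {p : ℕ} (hF : Fintype.card F = 3) (hp : p.Prime) (hd : p ∣ Nat.card PSL3) :
    p = 2 ∨ p = 3 ∨ p = 13 := by
  have h1 : Nat.card PSL3 ∣ Nat.card SL3 := Subgroup.card_quotient_dvd_card _
  have h2 := Cfsg.Agent.ClassicalGeometry.PSL2Basic.card_SL_mul (n := Fin 3) (F := F)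
  have h3 : Nat.card (GL (Fin 3) F) = 11232 := by
    rw [Matrix.card_GL_field, hF]
    simp only [Fin.prod_univ_three, _root_.Nat.reducePow, _root_.Fin.isValue, _root_.Fin.coe_ofNat_eq_mod, _root_.Nat.zero_mod, _root_.pow_zero, _root_.Nat.add_one_sub_one, _root_.Nat.one_mod, _root_.pow_one, _root_.Nat.reduceSub, _root_.Nat.reduceMul, _root_.Nat.mod_succ]
  rw [h3, hF] at h2
  have h4 : p ∣ 11232 := by
    rw [← h2]
    exact Dvd.dvd.mul_right (hd.trans h1) _
  have h5 : (11232 : ℕ) = 2 ^ 5 * 3 ^ 3 * 13 := by norm_num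
  rw [h5] at h4
  rcases (Nat.Prime.dvd_mul hp).1 h4 with h | h
  · rcases (Nat.Prime.dvd_mul hp).1 h with h | h
    · left; exact (Nat.prime_dvd_prime_iff_eq hp Nat.prime_two).1 (hp.dvd_of_dvd_pow h)
    · right; left; exact (Nat.prime_dvd_prime_iff_eq hp Nat.prime_three).1 (hp.dvd_of_dvd_pow h)
  · right; right; exact (Nat.prime_dvd_prime_iff_eq hp (by norm_num)).1 h

/-- the transvection -/
def tv (F : Type*) [Field F] : Matrix.SpecialLinearGroup (Fin 3) F :=
  ⟨!![1, 1, 0; 0, 1, 0; 0, 0, 1], by simp [Matrix.det_fin_three]⟩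

/-- an involution inverting it -/
def sg (F : Type*) [Field F] : Matrix.SpecialLinearGroup (Fin 3) F :=
  ⟨!![-1, 0, 0; 0, 1, 0; 0, 0, -1], by simp [Matrix.det_fin_three]⟩

omit [Fintype F] in
theorem sg_tv : sg F * tv F * (sg F)⁻¹ = (tv F)⁻¹ := by
  rw [mul_inv_eq_iff_eq_mul, eq_inv_mul_iff_mul_eq]
  apply Subtype.ext
  simp only [Matrix.SpecialLinearGroup.coe_mul]
  show !![1, 1, 0; 0, 1, 0; 0, 0, 1] * (!![-1, 0, 0; 0, 1, 0; 0, 0, -1] * !![1, 1, 0; 0, 1, 0; 0, 0, 1]) =
    (!![-1, 0, 0; 0, 1, 0; 0, 0, -1] : Matrix (Fin 3) (Fin 3) F)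
  ext i j
  (revert i j; simp only [Matrix.mul_apply, Fin.sum_univ_three, _root_.Fin.forall_fin_succ, _root_.Matrix.cons_mul, _root_.Nat.succ_eq_add_one, Nat.reduceAdd, _root_.Matrix.vecMul_cons, _root_.Matrix.head_cons, _root_.neg_smul, _root_.one_smul, _root_.Matrix.neg_cons, _root_.neg_zero, _root_.Matrix.neg_empty, _root_.Matrix.tail_cons, _root_.zero_smul, _root_.Matrix.empty_vecMul, _root_.add_zero, _root_.zero_add, _root_.Matrix.empty_mul, _root_.Equiv.symm_apply_apply, _root_.Matrix.of_apply, _root_.Matrix.cons_val', _root_.Matrix.cons_val_fin_one, Fin.isValue, _root_.Matrix.cons_val_zero, _root_.Matrix.cons_val_one, _root_.Matrix.cons_val, _root_.mul_neg, _root_.mul_one, _root_.MulZeroClass.mul_zero, _root_.Matrix.cons_val_succ, _root_.forall_const, _root_.neg_add_cancel, _root_.and_self, _root_.add_eq_right, _root_.neg_eq_zero, _root_.implies_true])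

theorem psl_three (hF : Fintype.card F = 3) {G : Type*} [Group G] [Finite G] [IsSimpleGroup G]
    (e : G ≃* PSL3) {π : Set ℕ} (h2 : 2 ∉ π) (hG : Homog π G) (hc : ¬ PiNum π (Nat.card G)) :
    PiNum πᶜ (Nat.card G) := by
  have hG' : Homog π PSL3 := hG.of_mulEquiv e
  have h3 : 3 ∉ π := by
    intro h3
    have hch : CharP F 3 := by
      obtain ⟨r, hr⟩ := CharP.exists F
      have hrp : r.Prime := CharP.char_is_prime F r
      have : Fact r.Prime := ⟨hrp⟩
      obtain ⟨n, -, hn⟩ := FiniteField.card F r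
      rw [hF] at hn
      have : r ∣ 3 := by rw [hn]; exact dvd_pow_self r n.ne_zero
      rw [(Nat.prime_dvd_prime_iff_eq hrp Nat.prime_three).1 this] at hr
      exact hr
    have h30 : (3 : F) = 0 := by exact_mod_cast CharP.cast_eq_zero F 3
    have : Fact (Nat.Prime 3) := ⟨Nat.prime_three⟩
    have ho : orderOf (QuotientGroup.mk' (center SL3) (tv F)) = 3 := by
      apply orderOf_eq_prime
      · rw [← map_pow]
        have : tv F ^ 3 = 1 := by
          apply Subtype.ext
          rw [Matrix.SpecialLinearGroup.coe_pow]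
          show (!![1, 1, 0; 0, 1, 0; 0, 0, 1] : Matrix (Fin 3) (Fin 3) F) ^ 3 = 1
          have h4 : (1 : F) + (1 + 1) = 0 := by linear_combination h30
          ext i j
          (revert i j; simp only [pow_succ, Matrix.mul_apply, Fin.sum_univ_three, h4, _root_.Fin.forall_fin_succ, _root_.pow_zero, _root_.one_mul, _root_.Matrix.cons_mul, _root_.Nat.succ_eq_add_one, Nat.reduceAdd, _root_.Matrix.vecMul_cons, _root_.Matrix.head_cons, _root_.one_smul, _root_.Matrix.tail_cons, _root_.zero_smul, _root_.Matrix.empty_vecMul, _root_.add_zero, _root_.Matrix.add_cons, _root_.Matrix.empty_add_empty, _root_.zero_add, _root_.Matrix.empty_mul, _root_.Equiv.symm_apply_apply, _root_.Matrix.of_apply, _root_.Matrix.cons_val', _root_.Matrix.cons_val_fin_one, Fin.isValue, _root_.Matrix.cons_val_zero, _root_.Matrix.cons_val_one, _root_.Matrix.cons_val, _root_.mul_one, _root_.MulZeroClass.mul_zero, _root_.Matrix.cons_val_succ, _root_.IsEmpty.forall_iff, _root_.and_true, _root_.Matrix.one_apply_eq, _root_.Fin.succ_zero_eq_one,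 _root_.ne_eq, _root_.zero_ne_one, _root_.not_false_eq_true, _root_.Matrix.one_apply_ne, _root_.Fin.succ_one_eq_two, Fin.reduceEq, _root_.and_self, _root_.Fin.succ_ne_zero, _root_.true_and])
        rw [this, map_one]
      · intro h
        have h5 : tv F ∈ center SL3 := (QuotientGroup.eq_one_iff _).1 h
        rw [Matrix.SpecialLinearGroup.mem_center_iff] at h5
        obtain ⟨r, -, h6⟩ := h5
        have h7 := congrFun (congrFun h6 0) 1
        change _ = (1 : F) at h7
        simp at h7
    refine not_real hG' h2 Nat.prime_three h3 ho (g := QuotientGroup.mk' (center SL3) (sg F)) ?_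
    rw [← map_mul, ← map_inv, ← map_mul, sg_tv, map_inv]
  have hcl : ClosedPr π G := by
    refine closedPr_of_single hG (p := 13) (by norm_num) fun r hr hrp hrd => ?_
    have hrd' : r ∣ Nat.card PSL3 := by rwa [← Nat.card_congr e.toEquiv]
    rcases card_three hF hrp hrd' with rfl | rfl | rfl
    · exact absurd hr h2
    · exact absurd hr h3
    · rfl
  exact (of_closedPr hcl).resolve_left hc

end three

end Cfsg.Agent.H506.PiSmall
end
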